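import Cfsg.Agent.H31.FR.Root
import Cfsg.Agent.H572.FR.Main
import Cfsg.Agent.H224.FR.RThree

/-!
# The ratio bound for `F4(q)`, `q` odd, `q ≥ 5` (helper31, from R1 = helper572, R3 = helper224)

`ratio` : there is an embedding `e` of the orthogonal space `W` of dimension 7 in `F4(q)`, equivariant for `Ω₇(q)`, with root
elements as the images of the coordinate vectors, such that `|χ(e w)| ≤ 2/25 χ(1)` for every irreducible `χ ≠ 1`, `w ≠ 0`.
-/

set_option autoImplicit false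
set_option linter.unusedSectionVars false

namespace Cfsg.Agent.H31.FR

open Cfsg Cfsg.Lie Module
open Cfsg.Agent.ChevalleyStructure
open Cfsg.Agent.LieClassical Cfsg.Agent.LieClassical.OrthForms Cfsg.Agent.LieClassical.OrthCore
open Cfsg.Agent.Nodes.RGDChev Cfsg.Agent.KFacts.RgdChevCoord
open Cfsg.Agent.H224.FR (X EE L0 L1 L2 L3 mem_X X_le_EE EE_le rthree)
open Cfsg.Agent.H572.FR (FF mem_FF ratio_bound)

universe u

variable {K : Type u} [Field K]

theorem mem_of_single {G : Type*} [Group G] {ι : Type*} [Fintype ι] [DecidableEq ι] (e : Multiplicative (ι → K) →* G)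
    (H : Subgroup G) (w : ι → K) (h : ∀ k, e (.ofAdd (Pi.single k (w k))) ∈ H) : e (.ofAdd w) ∈ H := by
  have h1 : w = ∑ k, Pi.single k (w k) := (Finset.univ_sum_single w).symm
  rw [h1]
  refine Finset.sum_induction _ (fun v : ι → K => e (.ofAdd v) ∈ H) ?_ ?_ fun k _ => h k
  · intro a b ha hb
    rw [ofAdd_add, map_mul]
    exact H.mul_mem ha hb
  · rw [ofAdd_zero, map_one]
    exact H.one_mem

theorem rr_mem : ∀ k, rr k ∈ L0 := by decide

theorem mem_rr : ∀ r ∈ L0, ∃ k, rr k = r := by decide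

/-- **The ratio bound.** -/
theorem ratio [Finite K] (h2 : (2 : K) ≠ 0) (h5 : 5 ≤ Nat.card K) :
    ∃ e : Multiplicative (Unit ⊕ (Fin 3 ⊕ Fin 3) → K) →* ↥(chevF4.group K), Function.Injective e ∧
      (∀ h ∈ E (oddForm 3 K), ∃ g, ∀ w, g * e (.ofAdd w) * g⁻¹ = e (.ofAdd (h w))) ∧
      (∀ k t, e (.ofAdd (Pi.single k t)) =
        xc Cfsg.Agent.Nodes.KindF.isType (vec chevF4 4 (rr k)) (ss K k * t)) ∧ e.range = EE K L0 ∧
      ∀ {d : ℕ} (ρ : Representation ℂ ↥(chevF4.group K) (Fin d → ℂ)), ρ.IsIrreducible → ρ.character ≠ (fun _ => 1) →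
        ∀ {w : Unit ⊕ (Fin 3 ⊕ Fin 3) → K}, w ≠ 0 → ‖ρ.character (e (.ofAdd w))‖ ≤ 2 / 25 * d := by
  classical
  obtain ⟨e, he1, he2, he3⟩ := exists_er h2
  have hX : ∀ k t, e (.ofAdd (Pi.single k t)) ∈ X K (rr k) := fun k t => by
    rw [mem_X (rr_lt k)]
    exact ⟨_, he3 k t⟩
  have hrange : e.range = EE K L0 := by
    apply le_antisymm
    · rintro _ ⟨w, rfl⟩
      exact mem_of_single e (EE K L0) w.toAdd fun k => X_le_EE (rr_mem k) (hX k _)
    · apply EE_le
      intro r hr y hy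
      obtain ⟨k, rfl⟩ := mem_rr r hr
      rw [mem_X (rr_lt k)] at hy
      obtain ⟨a, rfl⟩ := hy
      refine ⟨.ofAdd (Pi.single k (ss K k * a)), ?_⟩
      rw [he3, ← mul_assoc, ss_sq, one_mul]
  obtain ⟨s1, n, s3, c, h1, h3, h4, h6, h7, h8⟩ := rthree (K := K)
  refine ⟨e, he1, he2, he3, hrange, fun ρ hirr hρ w hw => ?_⟩
  -- the elements of the plane
  have hF : ∀ (H : Subgroup ↥(chevF4.group K)), (∀ r ∈ [2, 16, 17], X K r ≤ H) → ∀ w ∈ FF K, e (.ofAdd w) ∈ H := by
    intro H hH w hw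
    rw [mem_FF] at hw
    refine mem_of_single e H w fun k => ?_
    rcases k with k | k | k
    · rw [show w (Sum.inl k) = 0 from hw.1, Pi.single_zero, ofAdd_zero, map_one]
      exact H.one_mem
    · refine hH (rr (.inr (.inl k))) ?_ (hX _ _)
      revert k
      decide
    · rw [hw.2, Pi.single_zero, ofAdd_zero, map_one]
      exact H.one_mem
  have hc : ∀ w ∈ FF K, c * e (.ofAdd w) * c⁻¹ ∈ X K 0 ⊔ X K 1 ⊔ X K 15 := by
    intro w hw
    have h9 := hF ((X K 0 ⊔ X K 1 ⊔ X K 15).comap (MulAut.conj c).toMonoidHom)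
      (fun r hr => Subgroup.map_le_iff_le_comap.1 (h7 r hr)) w hw
    exact h9
  refine ratio_bound h2 h5 (e := e) he2 (E1 := EE K L1) (E2 := EE K L2) (E3 := EE K L3) (s1 := s1) (n := n) (s3 := s3)
    (c := c) ?_ ?_ h4 h6 ?_ ?_ ?_ ?_ ρ hirr hρ hw
  · rw [hrange]
    exact h1
  · rw [hrange]
    exact h3
  · exact hF _ fun r hr => X_le_EE (by revert r; decide)
  · exact fun w hw => sup_le (sup_le (X_le_EE (by decide)) (X_le_EE (by decide))) (X_le_EE (by decide)) (hc w hw)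
  · exact fun w hw => sup_le (sup_le (X_le_EE (by decide)) (X_le_EE (by decide))) (X_le_EE (by decide)) (hc w hw)
  · rw [hrange]
    exact h8

end Cfsg.Agent.H31.FR
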